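import Mathlib
import Cfsg.Agent.Lib.Helper5.CS4.Defs

/-!
# CS4 (S4146), package [FIN1] (from [NCS], [ITO], [PROD])
-/

set_option autoImplicit false

namespace Cfsg.Agent.Lib.Helper13.CS4

open Cfsg.Agent.Lib.Helper5.CS4

universe u

theorem pkgFin1 (hNcs : PkgNcs.{u}) (hIto : PkgItoSub.{u}) (hProd : PkgProd.{u}) :
    PkgFin1.{u} := by
  intro G _ _ n q e U a₀ hSt hE1 hCU hex
  obtain ⟨hn1, hm1, hcop, hrange⟩ := hSt.ctx
  have hq := hSt.hq
  have he : e ≠ 0 := by
    rintro rfl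
    rw [pow_zero] at hm1
    exact lt_irrefl 1 hm1
  obtain ⟨w, hwU, hw⟩ := hSt.w_ex
  obtain ⟨H, hH⟩ : ∃ H : Subgroup G, H = Subgroup.centralizer ({w} : Set G) := ⟨_, rfl⟩
  have hmemH : ∀ x : G, x ∈ H ↔ x * w = w * x := by
    intro x
    rw [hH, Subgroup.mem_centralizer_iff]
    constructor
    · intro h
      exact (h w (Set.mem_singleton w)).symm
    · intro h y hy
      rw [Set.mem_singleton_iff] at hy
      rw [hy]
      exact h.symm
  have hall : ∀ x ∈ H, (Subgroup.centralizer ({x} : Set G)).relIndex H = 1 ∨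
      (Subgroup.centralizer ({x} : Set G)).relIndex H = n := by
    intro x hx
    rw [hH]
    exact hNcs n q e U a₀ hSt hE1 hCU hex w hwU hw x ((hmemH x).1 hx)
  have ha₀H : a₀ ∈ H := (hmemH a₀).2 (hSt.a₀_cent w hwU)
  have hrel : (Subgroup.centralizer ({a₀} : Set G)).relIndex H = n := by
    have h1 := (hProd n (q ^ e) hcop a₀ w hSt.a₀_type hw).2
    rw [← hH] at h1
    have h2 := Subgroup.relIndex_mul_index
      (inf_le_right : Subgroup.centralizer ({a₀} : Set G) ⊓ H ≤ H)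
    rw [Subgroup.inf_relIndex_right, h1] at h2
    have h3 : H.index = q ^ e := by rw [hH]; exact hw
    rw [h3] at h2
    exact Nat.eq_of_mul_eq_mul_right (by positivity) h2
  obtain ⟨k, hk⟩ := hSt.a₀_order
  have h4 := (hIto H n hn1 hall a₀ ha₀H hrel q k hq hk).2
  have h5 : q ∣ Nat.gcd n (q ^ e) := Nat.dvd_gcd h4 (dvd_pow_self q he)
  rw [Nat.Coprime.gcd_eq_one hcop] at h5
  exact hq.one_lt.ne' (Nat.dvd_one.mp h5)

end Cfsg.Agent.Lib.Helper13.CS4
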