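import Mathlib
import Cfsg.Agent.Lib.Helper5.CS4.Defs

/-!
# CS4 (S4146), package [FIN2]
-/

set_option autoImplicit false

namespace Cfsg.Agent.Lib.Helper13.CS4

open Cfsg.Agent.Lib.Helper5.CS4

universe u

theorem pkgFin2 : PkgFin2.{u} := by
  intro G _ _ n q e U a₀ hSt hno
  obtain ⟨hn1, hm1, hcop, hrange⟩ := hSt.ctx
  have hq := hSt.hq
  have he : e ≠ 0 := by
    rintro rfl
    rw [pow_zero] at hm1
    exact lt_irrefl 1 hm1
  -- a prime `t` dividing `n`
  obtain ⟨t, ht, htn⟩ := Nat.exists_prime_and_dvd (Nat.ne_of_gt hn1)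
  have htq : t ≠ q := by
    rintro rfl
    have h1 : t ∣ Nat.gcd n (t ^ e) := Nat.dvd_gcd htn (dvd_pow_self t he)
    rw [Nat.Coprime.gcd_eq_one hcop] at h1
    exact ht.one_lt.ne' (Nat.dvd_one.mp h1)
  have : Fact t.Prime := ⟨ht⟩
  obtain ⟨T⟩ : Nonempty (Sylow t G) := inferInstance
  have hTle : (T : Subgroup G) ≤ Subgroup.centralizer ({a₀} : Set G) := by
    intro x hx
    obtain ⟨k, hk⟩ := T.isPGroup' ⟨x, hx⟩
    have hk' : x ^ (t ^ k) = 1 := congrArg Subtype.val hk
    obtain ⟨i, -, hi⟩ := (Nat.dvd_prime_pow ht).1 (orderOf_dvd_of_pow_eq_one hk')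
    have hmem : cidx x ∈ ({1, n, q ^ e, n * q ^ e} : Set ℕ) := by
      rw [← hrange]
      exact Set.mem_range_self x
    simp only [Set.mem_insert_iff, Set.mem_singleton_iff] at hmem
    have hxU : x ∈ U := by
      rw [hSt.U_iff]
      refine ⟨?_, ?_⟩
      · rcases hmem with h | h | h | h
        · exact Or.inl h
        · exact absurd (hSt.hTn x t i ht hi h) htq
        · exact Or.inr h
        · exact absurd h (hno x t i ht htq hi)
      · rw [hi]
        exact Nat.Coprime.pow_left i ((Nat.coprime_primes ht hq).2 htq)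
    rw [Subgroup.mem_centralizer_iff]
    intro y hy
    rw [Set.mem_singleton_iff] at hy
    rw [hy]
    exact hSt.a₀_cent x hxU
  have h1 : (Subgroup.centralizer ({a₀} : Set G)).index ∣ (T : Subgroup G).index :=
    Subgroup.index_dvd_of_le hTle
  have h2 : (Subgroup.centralizer ({a₀} : Set G)).index = n := hSt.a₀_type
  rw [h2] at h1
  exact T.not_dvd_index (htn.trans h1)

end Cfsg.Agent.Lib.Helper13.CS4
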